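import Groth.Agent.Fixpt.H910.In
import Groth.Agent.Fixpt.H136.LocCore

/-!
# The local terms of the constant sheaf, for abstract inverse and direct images

`TrSt D c n L tr`: on the fibre at `ξ`, the map `tr : c_* c^* L ⟶ L` is `(y_ζ) ↦ ∑ n_ζ y_ζ`. Then the local term of
`w₀ : (c₂)_* c₁^* Λ = (c₂)_* Λ = (c₂)_* c₂^* Λ ⟶ Λ` at a fixed point `ζ` is `n_ζ`.
-/

set_option autoImplicit false
universe u

open CategoryTheory CategoryTheory.Limits AlgebraicGeometry Opposite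

namespace Groth.Agent.Fixpt.H136.LocFn

open Groth.Agent.Fixpt.H902 Groth.Agent.Fixpt.H910 Groth.Agent.Fixpt.H910.Core
  Groth.Agent.Fixpt.H910.Trace Groth.Agent.Fixpt.H910.Fn

section trL

variable {Λ : Type (u + 1)} [CommRing Λ] {S A X : Scheme.{u}} {CS CA CX : Type (u + 2)}
  [Category.{u + 1} CS] [Category.{u + 1} CA] [Category.{u + 1} CX]
  (plS : (S ⟶ X) → (CX ⥤ CS)) (plA : (S ⟶ A) → (CA ⥤ CS)) (plX : (A ⟶ X) → (CX ⥤ CA))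
  (ps : (A ⟶ X) → (CA ⥤ CX)) (cu : ∀ c : A ⟶ X, ps c ⋙ plX c ⟶ 𝟭 CA)
  (gs : CS ⥤ ModuleCat.{u + 1} Λ)
  (th : ∀ (ζ : S ⟶ A) (c : A ⟶ X) (ξ : S ⟶ X) (_ : ζ ≫ c = ξ), plX c ⋙ plA ζ ≅ plS ξ)
  (c : A ⟶ X) (n : ∀ (ξ : S ⟶ X) (ζ : S ⟶ A), ζ ≫ c = ξ → ℕ)
  (L : CX) (tr : (ps c).obj ((plX c).obj L) ⟶ L)

/-- The stalk formula of a trace map, for abstract data: on the fibre at `ξ`, `tr` is `(y_ζ) ↦ ∑ n_ζ y_ζ`.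
(A regular constant without `fun`s in its arguments, so that the kernel compares instances of it argument by
argument.) -/
def TrL : Prop :=
  ∀ (ξ : S ⟶ X) [Fintype {ζ : S ⟶ A // ζ ≫ c = ξ}],
    gs.map ((plS ξ).map tr) = ∑ ζ : {ζ : S ⟶ A // ζ ≫ c = ξ},
      n ξ ζ.1 ζ.2 • (gs.map ((th ζ.1 c ξ ζ.2).inv.app ((ps c).obj ((plX c).obj L)) ≫
          (plA ζ.1).map ((cu c).app ((plX c).obj L))) ≫
        gs.map ((th ζ.1 c ξ ζ.2).hom.app L))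

variable {plS plA plX ps cu gs th}

theorem trL_gen
    (p : ∀ (ζ : S ⟶ A) (c : A ⟶ X) (ξ : S ⟶ X) (_ : ζ ≫ c = ξ) (M : CA),
      gs.obj ((plS ξ).obj ((ps c).obj M)) ⟶ gs.obj ((plA ζ).obj M))
    (r : ∀ (ζ : S ⟶ A) (c : A ⟶ X) (ξ : S ⟶ X) (_ : ζ ≫ c = ξ) (L : CX),
      gs.obj ((plS ξ).obj L) ≅ gs.obj ((plA ζ).obj ((plX c).obj L)))
    (hp : ∀ (ζ : S ⟶ A) (c : A ⟶ X) (ξ : S ⟶ X) (h : ζ ≫ c = ξ) (M : CA), p ζ c ξ h M =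
      gs.map ((th ζ c ξ h).inv.app ((ps c).obj M) ≫ (plA ζ).map ((cu c).app M)))
    (hr : ∀ (ζ : S ⟶ A) (c : A ⟶ X) (ξ : S ⟶ X) (h : ζ ≫ c = ξ) (L : CX),
      (r ζ c ξ h L).inv = gs.map ((th ζ c ξ h).hom.app L))
    (H : ∀ (ξ : S ⟶ X) [Fintype {ζ : S ⟶ A // ζ ≫ c = ξ}], gs.map ((plS ξ).map tr) =
      ∑ ζ : {ζ : S ⟶ A // ζ ≫ c = ξ}, n ξ ζ.1 ζ.2 •
        (p ζ.1 c ξ ζ.2 ((plX c).obj L) ≫ (r ζ.1 c ξ ζ.2 L).inv)) :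
    TrL plS plA plX ps cu gs th c n L tr := by
  intro ξ _
  refine (H ξ).trans (Finset.sum_congr rfl fun ζ _ => ?_)
  rw [hp, hr]

end trL

variable {Λ : Type (u + 1)} [Field Λ] {k : Type u} [Field k] (D : Fn Λ k) {A X : Scheme.{u}}

/-- the stalk formula of a trace map -/
def TrSt (c : A ⟶ X)
    (n : ∀ (ξ : Spec (CommRingCat.of k) ⟶ X) (ζ : Spec (CommRingCat.of k) ⟶ A), ζ ≫ c = ξ → ℕ)
    (L : MX Λ X) (tr : (D.ps c).obj ((D.pl c).obj L) ⟶ L) : Prop :=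
  TrL (@Fn.pl Λ _ k _ D (Spec (CommRingCat.of k)) X) (@Fn.pl Λ _ k _ D (Spec (CommRingCat.of k)) A)
    (@Fn.pl Λ _ k _ D A X) (@Fn.ps Λ _ k _ D A X) (fun f => (D.adj f).counit) D.gs
    (@Fn.th Λ _ k _ D (Spec (CommRingCat.of k)) A X) c n L tr

variable {D}

section block

variable (f : X ⟶ Spec (CommRingCat.of k)) (g : A ⟶ Spec (CommRingCat.of k)) (c : A ⟶ X)
  (h : c ≫ f = g) [IsFinite c]
  {n : ∀ (ξ : Spec (CommRingCat.of k) ⟶ X) (ζ : Spec (CommRingCat.of k) ⟶ A), ζ ≫ c = ξ → ℕ}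
  {L : MX Λ X} {tr : (D.ps c).obj ((D.pl c).obj L) ⟶ L} (ht : TrSt D c n L tr)

include ht in
theorem block {ξ : KPt f} {ζ : KPt g} (z : (D.pushT f g c h).Z ξ ζ) :
    ((D.pushT f g c h).ι z).app ((D.pl c).obj L) ≫ ((D.fib f).s ξ).map tr =
      n ξ.1 ζ.1 z.down.down • ((D.pullT f g c h).proj z).app L := by
  classical
  have := Fn.finite_pts c ξ.1
  let _ : Fintype {ζ : Spec (CommRingCat.of k) ⟶ A // ζ ≫ c = ξ.1} := Fintype.ofFinite _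
  let _ : Fintype (Σ x, (D.pushT f g c h).Z ξ x) := Fintype.ofEquiv _ (ptEquiv f g c h ξ).symm
  refine Groth.Agent.Fixpt.H136.LocCore.ι_sum (D.pushT f g c h) z ((D.pl c).obj L)
    (((D.fib f).s ξ).map tr) (fun i => n ξ.1 i.1.1 i.2.down.down)
    (fun i => ((D.pullT f g c h).proj i.2).app L) ?_
  refine (ht ξ.1).trans ?_
  symm
  let _ : Fintype (Σ y : KPt g, ULift.{u} (PLift (y.1 ≫ c = ξ.1))) :=
    Fintype.ofEquiv _ (ptEquiv f g c h ξ).symm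
  exact (@Fintype.sum_equiv (Σ x, (D.pushT f g c h).Z ξ x)
    {ζ : Spec (CommRingCat.of k) ⟶ A // ζ ≫ c = ξ.1} _ _ _ _ (ptEquiv f g c h ξ) _ _ fun i => rfl)

end block

section loc

variable (f : X ⟶ Spec (CommRingCat.of k)) (g : A ⟶ Spec (CommRingCat.of k)) (c₁ c₂ : A ⟶ X)
  (h₁ : c₁ ≫ f = g) (h₂ : c₂ ≫ f = g) [IsFinite c₂]
  {n : ∀ (ξ : Spec (CommRingCat.of k) ⟶ X) (ζ : Spec (CommRingCat.of k) ⟶ A), ζ ≫ c₂ = ξ → ℕ}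
  {tr : (D.ps c₂).obj ((D.pl c₂).obj (D.cst X)) ⟶ D.cst X} (ht : TrSt D c₂ n (D.cst X) tr)

variable (D) in
/-- the correspondence on the constant sheaf attached to a trace map -/
noncomputable def w₀ (tr : (D.ps c₂).obj ((D.pl c₂).obj (D.cst X)) ⟶ D.cst X) :
    (D.ps c₂).obj ((D.pl c₁).obj (D.cst X)) ⟶ D.cst X :=
  (D.ps c₂).map (D.plCst c₁).hom ≫ (D.ps c₂).map (D.plCst c₂).inv ≫ tr

include ht in
/-- **the local action of `w₀` at a fixed point is the multiplication by `n_ζ`** -/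
theorem lact_w₀ {ξ : KPt f} (z : (D.corT f f g c₁ c₂ h₁ h₂).Z ξ ξ) :
    lact (D.corT f f g c₁ c₂ h₁ h₂) (w₀ D c₁ c₂ tr) z =
      n ξ.1 z.1.1 z.2.1.down.down • LinearMap.id := by
  obtain ⟨ζ, z₂, z₁⟩ := z
  have hw : w₀ D c₁ c₂ tr =
      (D.pushT f g c₂ h₂).F.map ((D.plCst c₁).hom ≫ (D.pullT f g c₂ h₂).ε) ≫ tr := by
    refine Eq.trans ?_ (congrArg (· ≫ tr) (((D.ps c₂).map_comp (D.plCst c₁).hom (D.plCst c₂).inv).symm))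
    exact (Category.assoc _ _ _).symm
  exact Groth.Agent.Fixpt.H136.LocCore.lact_w (D.pullT f g c₁ h₁) (D.pullT f g c₂ h₂)
    (D.pushT f g c₂ h₂) (D.plCst c₁).hom (D.plCst c₁).hom_inv_id tr (w₀ D c₁ c₂ tr) hw z₂ z₁ z₂
    (n ξ.1 ζ.1 z₂.down.down) (block f g c₂ h₂ ht z₂)

include ht in
theorem trace_lact {ξ : KPt f} (z : (D.corT f f g c₁ c₂ h₁ h₂).Z ξ ξ) :
    LinearMap.trace Λ _ (lact (D.corT f f g c₁ c₂ h₁ h₂) (w₀ D c₁ c₂ tr) z) =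
      (n ξ.1 z.1.1 z.2.1.down.down : Λ) := by
  rw [lact_w₀ f g c₁ c₂ h₁ h₂ ht z]
  exact Groth.Agent.Fixpt.H136.LocCore.trace_nsmul_id (D.fib f) ξ _

/-- the fixed points of `c₂_* c₁^*` -/
noncomputable def fixEquiv : Fix (D.corT f f g c₁ c₂ h₁ h₂) ≃
    {ζ : Spec (CommRingCat.of k) ⟶ A // ζ ≫ g = 𝟙 _ ∧ ζ ≫ c₁ = ζ ≫ c₂} where
  toFun i := ⟨i.2.1.1, i.2.1.2, i.2.2.2.down.down.trans i.2.2.1.down.down.symm⟩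
  invFun ζ := ⟨⟨ζ.1 ≫ c₂, by rw [Category.assoc, h₂, ζ.2.1]⟩, ⟨ζ.1, ζ.2.1⟩, ⟨⟨rfl⟩⟩, ⟨⟨ζ.2.2⟩⟩⟩
  left_inv i := by
    obtain ⟨ξ, ζ, ⟨⟨e₂⟩⟩, ⟨⟨e₁⟩⟩⟩ := i
    obtain rfl : ⟨ζ.1 ≫ c₂, by rw [Category.assoc, h₂, ζ.2]⟩ = ξ := Subtype.ext e₂
    rfl
  right_inv _ := rfl

include ht in
/-- **the sum of the local terms of `w₀`** -/
theorem loc_w₀ : loc (D.corT f f g c₁ c₂ h₁ h₂) (w₀ D c₁ c₂ tr) =
    ∑ᶠ ζ : {ζ : Spec (CommRingCat.of k) ⟶ A // ζ ≫ g = 𝟙 _ ∧ ζ ≫ c₁ = ζ ≫ c₂},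
      (n (ζ.1 ≫ c₂) ζ.1 rfl : Λ) := by
  refine Eq.trans (finsum_congr fun i => trace_lact f g c₁ c₂ h₁ h₂ ht i.2) ?_
  refine finsum_eq_of_bijective (fixEquiv (D := D) f g c₁ c₂ h₁ h₂)
    (fixEquiv (D := D) f g c₁ c₂ h₁ h₂).bijective ?_
  rintro ⟨ξ, ζ, ⟨⟨e₂⟩⟩, ⟨⟨e₁⟩⟩⟩
  obtain rfl : ⟨ζ.1 ≫ c₂, by rw [Category.assoc, h₂, ζ.2]⟩ = ξ := Subtype.ext e₂
  rfl

end loc

end Groth.Agent.Fixpt.H136.LocFn
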