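import Groth.Agent.Fixpt.H657.Real
import Groth.Agent.Fixpt.H136.TraceStalkMod
import Groth.Agent.Fixpt.H136.LocFn

/-!
# The local terms of the constant sheaf

`loc_real`: the sum of the local terms of `w₀ : (c₂)_* c₁^* Λ = (c₂)_* Λ ⟶ Λ` (the trace) is the sum of the
multiplicities `gmult c₂ ζ` over the fixed points.
-/

set_option autoImplicit false
set_option backward.isDefEq.respectTransparency.types false
universe u

open CategoryTheory CategoryTheory.Limits AlgebraicGeometry Opposite CategoryTheory.Abelian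

namespace Groth.Agent.Fixpt.H136.LocReal

open Groth.Agent.Fixpt.H902 Groth.Agent.Fixpt.H910 Groth.Agent.Fixpt.H910.Core
  Groth.Agent.Fixpt.H910.Trace Groth.Agent.Fixpt.H657.Real
  Groth.Agent.Fixpt.H136.Mult Groth.Agent.Fixpt.H136.TraceStalkMod Groth.Agent.Fixpt.H136.LocFn
  Groth.Agent.Fixpt.H572.TraceMod

section real

variable (Λ : Type (u + 1)) [CommRing Λ] (k : Type u) [Field k]
  {A X : Scheme.{u}} (c : A ⟶ X)

theorem stalkPullIso_inv_eq (ζ : Spec (CommRingCat.of k) ⟶ A) (ξ : Spec (CommRingCat.of k) ⟶ X)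
    (h : ζ ≫ c = ξ) (L : EtModW.Mod Λ X) :
    (FixPt.stalkPullIso ζ c ξ h L).inv = (FixPt.gsec Λ (Spec (CommRingCat.of k))).map
      ((ModCoh.theta ζ c ξ h).hom.app L) := by
  have h1 : (FixPt.pullCongr (Λ := Λ) h).symm ≪≫ FixPt.pullComp ζ c = (ModCoh.theta ζ c ξ h).symm := by
    unfold ModCoh.theta
    rw [Iso.trans_symm, Iso.symm_symm_eq]
  unfold FixPt.stalkPullIso
  rw [h1]
  rfl

variable [IsFinite c] [Flat c] [LocallyOfFinitePresentation c] [IsAlgClosed k]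

theorem trE (L : EtModW.Mod Λ X) :
    TrL (@EtModW.pull Λ _ (Spec (CommRingCat.of k)) X) (@EtModW.pull Λ _ (Spec (CommRingCat.of k)) A)
      (@EtModW.pull Λ _ A X) (@EtModW.push Λ _ A X) (@cuE Λ _ A X)
      (FixPt.gsec Λ (Spec (CommRingCat.of k))) (@ModCoh.theta Λ _ (Spec (CommRingCat.of k)) A X)
      c (gmult c) L (trP c L) :=
  trL_gen c (gmult c) L (trP c L) (@FixPt.stalkProj Λ _ (Spec (CommRingCat.of k)) A X)
    (@FixPt.stalkPullIso Λ _ (Spec (CommRingCat.of k)) A X)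
    (fun ζ c ξ h M => stalkProj_eq Λ k ζ c ξ h M)
    (fun ζ c ξ h L => stalkPullIso_inv_eq Λ k c ζ ξ h L) (fun ξ {_} => stalk_trP c ξ L)

/-- the trace of the constant sheaf -/
noncomputable def trR : (MX.push Λ c).obj ((MX.pull Λ c).obj (cstR Λ X)) ⟶ cstR Λ X :=
  trP c (FixPt.unit Λ X)

omit [IsFinite c] [Flat c] [LocallyOfFinitePresentation c] [IsAlgClosed k] c in
theorem th_funext' : @MX.theta Λ _ (Spec (CommRingCat.of k)) A X =
    @ModCoh.theta Λ _ (Spec (CommRingCat.of k)) A X := by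
  funext f t f₀ w
  exact theta_eq Λ f t f₀ w

theorem trRL :
    TrL (@MX.pull Λ _ (Spec (CommRingCat.of k)) X) (@MX.pull Λ _ (Spec (CommRingCat.of k)) A)
      (@MX.pull Λ _ A X) (@MX.push Λ _ A X) (@cuR Λ _ A X)
      (gsR Λ k) (@MX.theta Λ _ (Spec (CommRingCat.of k)) A X)
      c (gmult c) (cstR Λ X) (trR Λ c) :=
  (congrArg (fun t : (∀ (f : Spec (CommRingCat.of k) ⟶ A) (t : A ⟶ X)
      (f₀ : Spec (CommRingCat.of k) ⟶ X) (_ : f ≫ t = f₀),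
      MX.pull Λ t ⋙ MX.pull Λ f ≅ MX.pull Λ f₀) =>
      TrL (@MX.pull Λ _ (Spec (CommRingCat.of k)) X) (@MX.pull Λ _ (Spec (CommRingCat.of k)) A)
      (@MX.pull Λ _ A X) (@MX.push Λ _ A X) (@cuR Λ _ A X) (gsR Λ k) t
      c (gmult c) (cstR Λ X) (trR Λ c)) (th_funext' (A := A) (X := X) Λ k)).mpr
    (trE Λ k c (FixPt.unit Λ X))

end real

section loc

variable (Λ : Type (u + 1)) [Field Λ] (k : Type u) [Field k] [IsAlgClosed k]
  {A X : Scheme.{u}}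

theorem trSt (c : A ⟶ X) [IsFinite c] [Flat c] [LocallyOfFinitePresentation c] :
    TrSt (real Λ k) c (gmult c) (cstR Λ X) (trR Λ c) :=
  trRL Λ k c

variable (f : X ⟶ Spec (CommRingCat.of k)) (g : A ⟶ Spec (CommRingCat.of k)) (c₁ c₂ : A ⟶ X)
  (h₁ : c₁ ≫ f = g) (h₂ : c₂ ≫ f = g) [IsFinite c₂] [Flat c₂] [LocallyOfFinitePresentation c₂]

/-- the correspondence `(c₂)_* c₁^* Λ = (c₂)_* Λ ⟶ Λ` -/
noncomputable def wR : (MX.push Λ c₂).obj ((MX.pull Λ c₁).obj (cstR Λ X)) ⟶ cstR Λ X :=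
  (MX.push Λ c₂).map (plCstR Λ c₁).hom ≫ (MX.push Λ c₂).map (plCstR Λ c₂).inv ≫ trR Λ c₂

theorem wR_eq : wR Λ c₁ c₂ = (EtModW.push Λ c₂).map (FixPt.pullUnit c₁).hom ≫ trU Λ c₂ := rfl

theorem w₀_eq : w₀ (real Λ k) c₁ c₂ (trR Λ c₂) = wR Λ c₁ c₂ := rfl

/-- **the sum of the local terms of the trace** -/
theorem loc_real : loc ((real Λ k).corT f f g c₁ c₂ h₁ h₂) (wR Λ c₁ c₂) =
    ∑ᶠ ζ : {ζ : Spec (CommRingCat.of k) ⟶ A // ζ ≫ g = 𝟙 _ ∧ ζ ≫ c₁ = ζ ≫ c₂},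
      (gmult c₂ (ζ.1 ≫ c₂) ζ.1 rfl : Λ) :=
  loc_w₀ f g c₁ c₂ h₁ h₂ (trSt Λ k c₂)

end loc

end Groth.Agent.Fixpt.H136.LocReal
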